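import Cfsg.Agent.H776.Co.Lin
import Mathlib.GroupTheory.Sylow

/-!
# S5227: `k ≠ 1` (task `Lin.k_ne_one`)

For `k = 1` the element `w1 x23 w2 x12x23 w1 w2` has order nine, and the exponent of the Sylow 3-subgroup `T` is three.
-/

set_option autoImplicit false
set_option linter.style.longLine false

namespace Cfsg.Agent.H447.Co

open Cfsg.Agent.H776.Co.Lin Subgroup

instance finite_L : Finite L := Finite.of_injective (fun g : L => (g : V → V)) DFunLike.coe_injective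

/-- elements of `T` have order dividing three -/
theorem pow_three_of_mem_T {x : L} (hx : x ∈ T) : x ^ 3 = 1 := by
  obtain ⟨a, b, c, rfl⟩ := hx
  rw [pow_succ, pow_two, tl_mul, tl_mul, ← tl_one]
  congr 1 <;> revert a b c <;> decide

theorem isPGroup_T : IsPGroup 3 T := by
  intro x
  refine ⟨1, ?_⟩
  apply Subtype.ext
  rw [pow_one]
  exact pow_three_of_mem_T x.2

/-- the Sylow 3-subgroup of `G` given by `T` -/
noncomputable def sylT {G : Subgroup L} (hG : Syl G) : Sylow 3 G :=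
  haveI : IsPGroup 3 (T.subgroupOf G) := isPGroup_T.comap_of_injective _ G.subtype_injective
  IsPGroup.toSylow this hG.idx

theorem coe_sylT {G : Subgroup L} (hG : Syl G) : (sylT hG : Subgroup G) = T.subgroupOf G := rfl

/-- every 3-element of `G` is conjugate into `T` -/
theorem exists_conj_mem_T {G : Subgroup L} (hG : Syl G) (P : Subgroup L) (hP : P ≤ G) (h3 : IsPGroup 3 P) :
    ∃ g ∈ G, ∀ x ∈ P, g * x * g⁻¹ ∈ T := by
  have h1 : IsPGroup 3 (P.subgroupOf G) := h3.comap_of_injective _ G.subtype_injective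
  obtain ⟨S, hS⟩ := h1.exists_le_sylow
  obtain ⟨g, hg⟩ := MulAction.exists_smul_eq G S (sylT hG)
  refine ⟨g, g.2, fun x hx => ?_⟩
  have h2 : (⟨x, hP hx⟩ : G) ∈ (S : Subgroup G) := hS hx
  have h4 : g * ⟨x, hP hx⟩ * g⁻¹ ∈ ((g • S : Sylow 3 G) : Subgroup G) := ⟨⟨x, hP hx⟩, h2, rfl⟩
  rw [hg] at h4
  exact h4

theorem pow_three {G : Subgroup L} (hG : Syl G) {x : L} (hx : x ∈ G) (h9 : x ^ 9 = 1) : x ^ 3 = 1 := by
  have h1 : IsPGroup 3 (zpowers x) := by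
    rw [IsPGroup.iff_card]
    have h2 : orderOf x ∣ 3 ^ 2 := orderOf_dvd_of_pow_eq_one h9
    obtain ⟨k, -, hk⟩ := (Nat.dvd_prime_pow Nat.prime_three).1 h2
    exact ⟨k, by rw [Nat.card_zpowers, hk]⟩
  obtain ⟨g, -, hg⟩ := exists_conj_mem_T hG (zpowers x) (by rwa [zpowers_le]) h1
  have h2 := pow_three_of_mem_T (hg x (mem_zpowers x))
  rw [conj_pow] at h2
  simpa using h2

/-- the word -/
def xf (v : V) : V := ![v 0 + v 2 + 2 * v 5, 2 * v 0 + 2 * v 2 + 2 * v 3 + v 5, 2 * v 0 + 2 * v 1 + 2 * v 2 + 2 * v 3 + 2 * v 5, 2 * v 0 + 2 * v 1 + 2 * v 2 + v 5, v 0 + v 1 + v 2 + v 3 + v 4 + 2 * v 5, v 0 + 2 * v 1 + 2 * v 2 + 2 * v 5]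
/-- its square -/
def x2f (v : V) : V := ![2 * v 0 + v 2 + 2 * v 3 + 2 * v 5, 2 * v 0 + v 1 + v 3, v 0 + 2 * v 3 + v 5, 2 * v 0 + 2 * v 3, v 0 + 2 * v 3 + v 4, 2 * v 0 + 2 * v 1 + v 2 + 2 * v 3]
/-- its cube -/
def x3f (v : V) : V := ![v 0 + v 1 + 2 * v 3, 2 * v 1 + 2 * v 3, v 2, v 1, 2 * v 1 + v 3 + v 4, v 5]
/-- its sixth power -/
def x6f (v : V) : V := ![v 0 + 2 * v 1 + v 3, v 3, v 2, 2 * v 1 + 2 * v 3, v 1 + 2 * v 3 + v 4, v 5]

theorem word_eq (v : V) : w1f (tf 0 1 0 (w2f 1 (tf 1 1 0 (w1f (w2f 1 v))))) = xf v := by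
  funext i
  fin_cases i <;> simp [tf, w1f, w2f, xf] <;> ring_nf <;> reduce_mod_char <;> ring

theorem xf_xf (v : V) : xf (xf v) = x2f v := by
  funext i
  fin_cases i <;> simp [xf, x2f] <;> ring_nf <;> reduce_mod_char

theorem x2f_xf (v : V) : x2f (xf v) = x3f v := by
  funext i
  fin_cases i <;> simp [xf, x2f, x3f] <;> ring_nf <;> reduce_mod_char

theorem x3f_x3f (v : V) : x3f (x3f v) = x6f v := by
  funext i
  fin_cases i <;> simp [x3f, x6f] <;> ring_nf <;> reduce_mod_char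

theorem x6f_x3f (v : V) : x6f (x3f v) = v := by
  funext i
  fin_cases i <;> simp [x3f, x6f] <;> ring_nf <;> reduce_mod_char

theorem k_ne_one {G : Subgroup L} (hG : Syl G) (h1 : ∃ g ∈ G, ∀ v, g v = w1f v) {k : ZMod 3}
    (h2 : ∃ g ∈ G, ∀ v, g v = w2f k v) : k ≠ 1 := by
  rintro rfl
  obtain ⟨a, ha, ha'⟩ := h1
  obtain ⟨b, hb, hb'⟩ := h2
  set x : L := a * tl 0 1 0 * b * tl 1 1 0 * a * b with hx
  have ht : ∀ s t u : ZMod 3, tl s t u ∈ G := fun s t u => hG.le ⟨s, t, u, rfl⟩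
  have hxG : x ∈ G := mul_mem (mul_mem (mul_mem (mul_mem (mul_mem ha (ht _ _ _)) hb) (ht _ _ _)) ha) hb
  have e1 : ∀ v, x v = xf v := by
    intro v
    rw [hx]
    simp only [LinearEquiv.mul_apply, tl_apply, ha', hb']
    exact word_eq v
  have e3 : ∀ v, (x ^ 3) v = x3f v := by
    intro v
    rw [pow_succ, pow_two]
    simp only [LinearEquiv.mul_apply, e1]
    rw [xf_xf, x2f_xf]
  have e9 : x ^ 9 = 1 := by
    refine LinearEquiv.ext fun v => ?_
    rw [show (9 : ℕ) = 3 * 3 from rfl, pow_mul, pow_succ, pow_two]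
    simp only [LinearEquiv.mul_apply, e3]
    rw [x3f_x3f, x6f_x3f]
    rfl
  have e : x ^ 3 = 1 := pow_three hG hxG e9
  have h : x3f ![0, 1, 0, 0, 0, 0] = ![0, 1, 0, 0, 0, 0] := by
    rw [← e3, e]
    rfl
  have h' := congrFun h 0
  simp [x3f] at h'

end Cfsg.Agent.H447.Co
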